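import Cfsg.Agent.RankTwoChief.PowerInj
import Cfsg.Agent.OddLocal.RankTwoAut
import Cfsg.Agent.OddLocal.RankTwoGroup
import Cfsg.Agent.PGroup.BurnsideCount
import Cfsg.Agent.PGroup.UniqueOrderP
import Cfsg.Agent.PGroup.Omega
import Cfsg.Agent.Constrained.HallHigman
import Cfsg.Agent.S3771

/-!
Chief `p`-factors of a `p`-solvable group of odd `p`-rank at most two have order at most `p ^ 2`.
-/

set_option autoImplicit false

open scoped commutatorElement

namespace CfsgLib.RankTwoChief

open Cfsg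

universe u

/-- Linked to `⊥` by a chain of normal subgroups with no index divisible by `p ^ 3`. -/
inductive Small (p : ℕ) {G : Type u} [Group G] : Subgroup G → Prop
  | bot : Small p ⊥
  | step {A B : Subgroup G} : Small p A → A.Normal → B.Normal → A ≤ B → ¬ p ^ 3 ∣ A.relIndex B →
      Small p B

variable {G : Type u} [Group G]

theorem Small.normal {p : ℕ} {B : Subgroup G} (h : Small p B) : B.Normal := by
  cases h with
  | bot => infer_instance
  | step _ _ hB _ _ => exact hB

theorem Small.comap {p : ℕ} {H : Type u} [Group H] (f : G →* H) (hf : Function.Surjective f)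
    (hker : Small p f.ker) {X : Subgroup H} (hX : Small p X) : Small p (X.comap f) := by
  induction hX with
  | bot => rwa [MonoidHom.comap_bot]
  | step _ hA hB hle hidx ih =>
    refine ih.step (hA.comap f) (hB.comap f) (Subgroup.comap_mono hle) ?_
    rwa [Subgroup.relIndex_comap, Subgroup.map_comap_eq_self_of_surjective hf]

/-- Chief factors of prime power order below a small subgroup. -/
theorem Small.chief_le [Finite G] {p : ℕ} [hp : Fact p.Prime] {T : Subgroup G} (hT : Small p T)
    {H K : Subgroup G} [H.Normal] [K.Normal] (hKH : K ≤ H) {n : ℕ} (hn : K.relIndex H = p ^ n)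
    (hchief : ∀ L : Subgroup G, L.Normal → K ≤ L → L ≤ H → L = K ∨ L = H) :
    H ⊓ T ≤ K ∨ n ≤ 2 := by
  induction hT with
  | bot => left; simp
  | @step A B _ hA hB hle hidx ih =>
    rcases ih with hA' | hn2
    swap
    · exact .inr hn2
    by_cases hB' : H ⊓ B ≤ K
    · exact .inl hB'
    right
    haveI := hA
    haveI := hB
    have hsup : (H ⊓ B) ⊔ K = H := by
      rcases hchief ((H ⊓ B) ⊔ K) inferInstance le_sup_right (sup_le inf_le_left hKH) with h | h
      · exact absurd (le_sup_left.trans h.le) hB'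
      · exact h
    have h1 : K.relIndex H = K.relIndex (H ⊓ B) := by
      conv_lhs => rw [← hsup]
      exact Subgroup.relIndex_sup_right _ _
    have h2 : K.relIndex (H ⊓ B) ∣ A.relIndex (H ⊓ B) := by
      have e1 : A.relIndex (H ⊓ B) = (A ⊓ (H ⊓ B)).relIndex (H ⊓ B) :=
        (Subgroup.inf_relIndex_right _ _).symm
      have e2 : K.relIndex (H ⊓ B) = (K ⊓ (H ⊓ B)).relIndex (H ⊓ B) :=
        (Subgroup.inf_relIndex_right _ _).symm
      rw [e1, e2]
      refine Subgroup.relIndex_dvd_of_le_left _ ?_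
      exact le_inf ((le_inf (inf_le_right.trans inf_le_left) inf_le_left).trans hA') inf_le_right
    have h3 : A.relIndex (H ⊓ B) ∣ A.relIndex B :=
      Constrained.relIndex_dvd_relIndex inf_le_right
    by_contra hn3
    exact hidx ((pow_dvd_pow p (by omega : 3 ≤ n)).trans
      (hn ▸ h1 ▸ h2.trans h3))

theorem not_pow_three_dvd_of_le {p m : ℕ} (hp : p.Prime) (hm : 0 < m) (h : m ≤ p ^ 2) :
    ¬ p ^ 3 ∣ m := fun hd => by
  have := Nat.le_of_dvd hm hd
  have h2 : p ^ 2 < p ^ 3 := Nat.pow_lt_pow_right hp.one_lt (by norm_num)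
  omega

theorem not_pow_three_dvd_of_pow {p : ℕ} (hp : p.Prime) {k : ℕ} (h : k ≤ 2) :
    ¬ p ^ 3 ∣ p ^ k :=
  not_pow_three_dvd_of_le hp (pow_pos hp.pos k) (Nat.pow_le_pow_right hp.pos h)

theorem subgroupRank {p k : ℕ} (hr : PRankLE p k G) (S : Subgroup G) : PRankLE p k S :=
  OddLocal.prankLE_of_injective S.subtype S.subtype_injective hr

/-- A normal `p`-subgroup with central elements of order `p`, few of them, is small. -/
theorem small_of_central_omega {p : ℕ} [hp : Fact p.Prime] (hp2 : p ≠ 2) :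
    ∀ (n : ℕ) (G : Type u) [Group G] [Finite G] (E : Subgroup G), Nat.card E = n → E.Normal →
      IsPGroup p E → (∀ x ∈ E, x ^ p = 1 → ∀ y ∈ E, x * y = y * x) →
      {x : G | x ∈ E ∧ x ^ p = 1}.ncard ≤ p ^ 2 → Small p E := by
  intro n
  induction n using Nat.strong_induction_on with
  | _ n ih =>
  intro G _ _ E hn hEn hEp hcen hcard
  subst hn
  haveI := hEn
  by_cases hbot : E = ⊥
  · rw [hbot]; exact Small.bot
  let T : Subgroup G :=
    { carrier := {x | x ∈ E ∧ x ^ p = 1}
      one_mem' := ⟨E.one_mem, one_pow p⟩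
      mul_mem' := fun {a b} ha hb => ⟨E.mul_mem ha.1 hb.1, by
        rw [(show Commute a b from hcen a ha.1 ha.2 b hb.1).mul_pow, ha.2, hb.2, one_mul]⟩
      inv_mem' := fun {a} ha => ⟨E.inv_mem ha.1, by rw [inv_pow, ha.2, inv_one]⟩ }
  have hTmem : ∀ x, x ∈ T ↔ x ∈ E ∧ x ^ p = 1 := fun x => Iff.rfl
  haveI hTn : T.Normal := ⟨fun x hx g => ⟨hEn.conj_mem x hx.1 g, by
    rw [conj_pow, hx.2, mul_one, mul_inv_cancel]⟩⟩
  have hTcard : Nat.card T ≤ p ^ 2 := by
    rw [← Nat.card_coe_set_eq] at hcard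
    exact hcard
  have hTsmall : Small p T := Small.bot.step inferInstance hTn bot_le (by
    rw [Subgroup.relIndex_bot_left]
    exact not_pow_three_dvd_of_le hp.out Nat.card_pos hTcard)
  have hTne : T ≠ ⊥ := by
    haveI : Nontrivial E := (Subgroup.nontrivial_iff_ne_bot E).mpr hbot
    obtain ⟨k, hk, hc⟩ := hEp.nontrivial_iff_card.mp inferInstance
    obtain ⟨x, hx⟩ := exists_prime_orderOf_dvd_card' (G := E) p (hc ▸ dvd_pow_self p hk.ne')
    intro hT
    have h1 : (x : G) ∈ T := ⟨x.2, by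
      rw [← Subgroup.coe_pow, ← hx, pow_orderOf_eq_one, Subgroup.coe_one]⟩
    rw [hT, Subgroup.mem_bot] at h1
    have h2 : orderOf x = 1 := by rw [← Subgroup.orderOf_coe, h1, orderOf_one]
    exact hp.out.ne_one (hx.symm.trans h2)
  have hinj : ∀ x ∈ E, ∀ y ∈ E, x ^ p = y ^ p → (x⁻¹ * y) ^ p = 1 := by
    intro x hx y hy hxy
    have := inv_mul_pow_eq_one_of_pow_eq (P := E) hp2 hEp (fun z hz => Subgroup.mem_center_iff.mpr
      fun w => Subtype.ext (hcen z z.2 (by simpa using congrArg Subtype.val hz) w w.2).symm)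
      (x := ⟨x, hx⟩) (y := ⟨y, hy⟩) (Subtype.ext (by simpa using hxy))
    simpa using congrArg Subtype.val this
  let π := QuotientGroup.mk' T
  have hπ : Function.Surjective π := QuotientGroup.mk'_surjective T
  have hTE : T ≤ E := fun x hx => hx.1
  have hker : π.ker = T := QuotientGroup.ker_mk' T
  have hcm : (E.map π).comap π = E := by
    rw [Subgroup.comap_map_eq, hker, sup_eq_left.mpr hTE]
  have hlt : Nat.card (E.map π) < Nat.card E := by
    rw [← Constrained.relIndex_eq_card_map]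
    have h1 := Subgroup.card_mul_index (T.subgroupOf E)
    rw [Nat.card_congr (Subgroup.subgroupOfEquivOfLe hTE).toEquiv] at h1
    have h2 : 1 < Nat.card T := by
      rcases Nat.lt_or_ge 1 (Nat.card T) with h | h
      · exact h
      · exact absurd (Subgroup.eq_bot_of_card_le T h) hTne
    show (T.subgroupOf E).index < _
    rw [← h1]
    exact lt_mul_of_one_lt_left (Nat.pos_of_ne_zero Subgroup.index_ne_zero_of_finite) h2
  have hsmall := ih _ hlt (G ⧸ T) (E.map π) rfl (hEn.map π hπ) (hEp.map π) ?_ ?_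
  · have := Small.comap π hπ (by rw [hker]; exact hTsmall) hsmall
    rwa [hcm] at this
  · rintro _ ⟨x, hx, rfl⟩ hxp _ ⟨y, hy, rfl⟩
    rw [← map_pow, QuotientGroup.mk'_apply, QuotientGroup.eq_one_iff] at hxp
    show π x * π y = π y * π x
    rw [← map_mul, ← map_mul, QuotientGroup.mk'_apply, QuotientGroup.mk'_apply, QuotientGroup.eq]
    have h1 : (x⁻¹ * (y⁻¹ * x * y)) ^ p = 1 := by
      refine hinj x hx _ (E.mul_mem (E.mul_mem (E.inv_mem hy) hx) hy) ?_
      have h2 : (y⁻¹ * x * y) ^ p = y⁻¹ * x ^ p * y := by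
        simpa using conj_pow (a := y⁻¹) (b := x) (i := p)
      rw [h2, mul_assoc, hcen _ hxp.1 hxp.2 y hy, ← mul_assoc, inv_mul_cancel, one_mul]
    have h3 : x⁻¹ * (y⁻¹ * x * y) ∈ T :=
      ⟨E.mul_mem (E.inv_mem hx) (E.mul_mem (E.mul_mem (E.inv_mem hy) hx) hy), h1⟩
    have h4 := hTn.conj_mem _ h3 (y⁻¹ * x⁻¹ * y * x)
    convert T.inv_mem h4 using 1
    group
  · classical
    calc {q : G ⧸ T | q ∈ E.map π ∧ q ^ p = 1}.ncard
        ≤ (T : Set G).ncard := ?_
      _ ≤ p ^ 2 := by rw [← Nat.card_coe_set_eq]; exact hTcard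
    refine Set.ncard_le_ncard_of_injOn (fun q => q.out ^ p) ?_ ?_
    · intro q hq
      have h1 : q.out ∈ E := by
        rw [← hcm]
        show π q.out ∈ E.map π
        rw [QuotientGroup.mk'_apply, QuotientGroup.out_eq']
        exact hq.1
      have h2 : q.out ^ p ∈ T := by
        rw [← QuotientGroup.eq_one_iff, QuotientGroup.mk_pow, QuotientGroup.out_eq']
        exact hq.2
      exact h2
    · intro q hq r hr hqr
      have hE : ∀ s : G ⧸ T, s ∈ E.map π → s.out ∈ E := by
        intro s hs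
        rw [← hcm]
        show π s.out ∈ E.map π
        rwa [QuotientGroup.mk'_apply, QuotientGroup.out_eq']
      rw [← QuotientGroup.out_eq' q, ← QuotientGroup.out_eq' r, QuotientGroup.eq]
      exact ⟨E.mul_mem (E.inv_mem (hE q hq.1)) (hE r hr.1), hinj _ (hE q hq.1) _ (hE r hr.1) hqr⟩

/-- The kernel bound: a group acting by a permutation-like map into a group of order `m`. -/
theorem relIndex_inf_centralizer_dvd [Finite G] {C Q : Subgroup G} [C.Normal] :
    (Q ⊓ Subgroup.centralizer (C : Set G)).relIndex Q ∣ Nat.card (MulAut C) := by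
  let φ : Q →* MulAut C := MulAut.conjNormal.comp Q.subtype
  have h : φ.ker = (Q ⊓ Subgroup.centralizer (C : Set G)).subgroupOf Q := by
    ext x
    rw [Subgroup.mem_subgroupOf, MonoidHom.mem_ker]
    constructor
    · intro hx
      refine ⟨x.2, Subgroup.mem_centralizer_iff.mpr fun c hc => ?_⟩
      have := congrArg Subtype.val (MulEquiv.congr_fun hx ⟨c, hc⟩)
      simp only [φ, MonoidHom.coe_comp, Function.comp_apply, MulAut.conjNormal_apply,
        Subgroup.coe_subtype, MulAut.one_apply] at this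
      exact (mul_inv_eq_iff_eq_mul.mp this).symm
    · rintro ⟨-, hx⟩
      ext c
      show (x : G) * (c : G) * (x : G)⁻¹ = c
      rw [mul_inv_eq_iff_eq_mul]
      exact (Subgroup.mem_centralizer_iff.mp hx c c.2).symm
  show ((Q ⊓ Subgroup.centralizer (C : Set G)).subgroupOf Q).index ∣ _
  rw [← h, Subgroup.index_ker]
  exact Subgroup.card_subgroup_dvd_card _

theorem not_dvd_pow_sub_one {p k : ℕ} (hp : p.Prime) (hk : 1 ≤ k) : ¬ p ∣ p ^ k - 1 := by
  intro h
  have h1 : p ∣ p ^ k := dvd_pow_self p (by omega)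
  have h2 : 1 ≤ p ^ k := Nat.one_le_pow _ _ hp.pos
  have h3 := Nat.dvd_sub h1 h
  rw [Nat.sub_sub_self h2] at h3
  exact hp.ne_one (Nat.dvd_one.mp h3)

/-- The `p`-part of the automorphism group of a group of order `p ^ n`, Frattini index `p ^ r`. -/
theorem pow_dvd_card_aut {P : Type*} [Group P] [Finite P] {p n r k : ℕ} [hp : Fact p.Prime]
    (hP : Nat.card P = p ^ n) (hr : (frattini P).index = p ^ r) (hr2 : r ≤ 2) (hn : n ≤ 3)
    (hk : p ^ k ∣ Nat.card (MulAut P)) : k ≤ 3 ∧ (n ≤ 2 → k ≤ 1) := by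
  have h := hk.trans (PGroup.card_aut_dvd hP hr)
  have hrn : r ≤ n := (Nat.pow_dvd_pow_iff_le_right hp.out.one_lt).1
    (hr ▸ hP ▸ Subgroup.index_dvd_card _)
  have hp1 : 1 ≤ p := hp.out.one_le
  have hcp : ∀ e : ℕ, 1 ≤ e → (p ^ k).Coprime (p ^ e - 1) := fun e he =>
    Nat.Coprime.pow_left k ((hp.out.coprime_iff_not_dvd).mpr (not_dvd_pow_sub_one hp.out he))
  interval_cases r
  · simp at h
    have : k = 0 := by
      by_contra hk0
      rcases h with h | h
      · exact hp.out.ne_one h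
      · exact hk0 h
    omega
  · simp only [Finset.prod_range_succ, Finset.prod_range_zero, one_mul, pow_zero] at h
    have h' := Nat.Coprime.dvd_of_dvd_mul_right (hcp 1 le_rfl) h
    have := (Nat.pow_dvd_pow_iff_le_right hp.out.one_lt).1 h'
    omega
  · simp only [Finset.prod_range_succ, Finset.prod_range_zero, one_mul, pow_zero] at h
    rw [show p ^ 2 - p ^ 1 = p ^ 1 * (p ^ 1 - 1) by rw [Nat.mul_sub, mul_one, ← pow_add],
      show p ^ (2 * (n - 2)) * ((p ^ 2 - 1) * (p ^ 1 * (p ^ 1 - 1))) =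
        p ^ (2 * (n - 2) + 1) * (p ^ 2 - 1) * (p ^ 1 - 1) by ring] at h
    have h' := Nat.Coprime.dvd_of_dvd_mul_right (hcp 2 (by norm_num))
      (Nat.Coprime.dvd_of_dvd_mul_right (hcp 1 le_rfl) h)
    have := (Nat.pow_dvd_pow_iff_le_right hp.out.one_lt).1 h'
    omega

/-- In a `p`-group, normal subgroups of order `p ^ 2` lie in the second centre. -/
theorem le_upperCentralSeries_two {P : Type*} [Group P] [Finite P] {p : ℕ} [hp : Fact p.Prime]
    (hP : IsPGroup p P) (A : Subgroup P) [A.Normal] (hA : Nat.card A = p ^ 2) :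
    A ≤ Subgroup.upperCentralSeries P 2 := by
  have hne : A ≠ ⊥ := fun h => by
    rw [h, Subgroup.card_bot] at hA
    exact absurd hA (Nat.one_lt_pow two_ne_zero hp.out.one_lt).ne
  have h1 := PGroup.inf_center_ne_bot hP A hne
  set Z := Subgroup.center P
  have hcard : Nat.card (A.map (QuotientGroup.mk' Z)) = 1 ∨
      Nat.card (A.map (QuotientGroup.mk' Z)) = p := by
    rw [← Constrained.relIndex_eq_card_map, ← Subgroup.inf_relIndex_right]
    have h2 := Subgroup.card_mul_index ((Z ⊓ A).subgroupOf A)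
    rw [Nat.card_congr (Subgroup.subgroupOfEquivOfLe (inf_le_right : Z ⊓ A ≤ A)).toEquiv, hA] at h2
    obtain ⟨i, -, hi⟩ := (Nat.dvd_prime_pow hp.out).mp (Dvd.intro _ h2 : Nat.card ↥(Z ⊓ A) ∣ p ^ 2)
    have hi1 : 1 ≤ i := Nat.one_le_iff_ne_zero.mpr (by
      rintro rfl
      rw [pow_zero, Subgroup.card_eq_one, inf_comm] at hi
      exact h1 hi)
    show ((Z ⊓ A).subgroupOf A).index = 1 ∨ ((Z ⊓ A).subgroupOf A).index = p
    refine (Nat.dvd_prime hp.out).mp ?_
    refine Nat.dvd_of_mul_dvd_mul_left hp.out.pos (k := p) ?_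
    rw [← sq, ← h2, hi]
    exact Nat.mul_dvd_mul_right (dvd_pow_self p (by omega)) _
  haveI : (A.map (QuotientGroup.mk' Z)).Normal :=
    Subgroup.Normal.map inferInstance _ (QuotientGroup.mk'_surjective Z)
  have hcen : A.map (QuotientGroup.mk' Z) ≤ Subgroup.center (P ⧸ Z) := by
    rcases hcard with h | h
    · rw [Subgroup.card_eq_one.mp h]; exact bot_le
    · exact PGroup.le_center_of_card_eq (hP.to_quotient Z) _ h
  intro a ha
  rw [Subgroup.mem_upperCentralSeries_succ_iff]
  intro y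
  rw [Subgroup.upperCentralSeries_one]
  have h3 := Subgroup.mem_center_iff.mp (hcen ⟨a, ha, rfl⟩) (QuotientGroup.mk' Z y)
  rw [← QuotientGroup.eq_one_iff]
  show QuotientGroup.mk' Z (a * y * a⁻¹ * y⁻¹) = 1
  rw [map_mul, map_mul, map_mul, map_inv, map_inv, ← h3, mul_inv_cancel_right, mul_inv_cancel]

/-- The `p`-core of a group of odd `p`-rank at most two is small. -/
theorem small_pCore [Finite G] {p : ℕ} [hp : Fact p.Prime] (hp2 : p ≠ 2) (hr : PRankLE p 2 G) :
    Small p (pCore p G) := by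
  classical
  set Q := pCore p G with hQ
  have hQp : IsPGroup p Q := Constrained.isPGroup_pCore
  have hpodd : Odd p := hp.out.odd_of_ne_two hp2
  haveI : Q.Normal := inferInstance
  set Z2 : Subgroup Q := Subgroup.upperCentralSeries Q 2
  haveI : Z2.Characteristic := inferInstance
  have hcl : ∀ a ∈ Z2, ∀ b : Q, ⁅a, b⁆ ∈ Subgroup.center Q := by
    intro a ha b
    have := Subgroup.mem_upperCentralSeries_succ_iff.mp ha b
    rwa [Subgroup.upperCentralSeries_one] at this
  let C₀ : Subgroup Q := (Cfsg.omegaOne p (⊤ : Subgroup Z2)).map Z2.subtype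
  haveI : (Cfsg.omegaOne p (⊤ : Subgroup Z2)).Characteristic :=
    PGroup.omegaOne_top_characteristic
  haveI : C₀.Characteristic := inferInstance
  have hmem : ∀ x : Q, x ∈ C₀ ↔ x ∈ Z2 ∧ x ^ p = 1 := by
    intro x
    constructor
    · rintro ⟨z, hz, rfl⟩
      refine ⟨z.2, ?_⟩
      have h1 : z ^ p = 1 := PGroup.pow_eq_one_of_mem_omegaOne hpodd (fun a _ b _ => by
        have h2 := hcl a a.2 b
        apply Subtype.ext
        have h3 := (Subgroup.mem_center_iff.mp h2 (a : Q)).symm
        simpa [commutatorElement_def] using h3) hz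
      simpa using congrArg Subtype.val h1
    · rintro ⟨hx, hxp⟩
      exact ⟨⟨x, hx⟩, PGroup.mem_omegaOne trivial (Subtype.ext (by simpa using hxp)), rfl⟩
  set C : Subgroup G := C₀.map Q.subtype with hC
  haveI : C.Normal := inferInstance
  have hCQ : C ≤ Q := Subgroup.map_subtype_le _
  set E : Subgroup G := Q ⊓ Subgroup.centralizer (C : Set G) with hE
  haveI : (Subgroup.centralizer (C : Set G)).Normal := Subgroup.normal_centralizer
  haveI : E.Normal := Subgroup.normal_inf_normal _ _
  have hexp : ∀ x ∈ C, x ^ p = 1 := by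
    rintro _ ⟨y, hy, rfl⟩
    show (y : G) ^ p = 1
    simpa using congrArg Subtype.val ((hmem y).mp hy).2
  -- elements of order `p` in `E` lie in `C`
  have hkey : ∀ x ∈ E, x ^ p = 1 → x ∈ C := by
    rintro x ⟨hxQ, hxC⟩ hxp
    by_cases hcyc : IsCyclic Q
    · have hx' : (⟨x, hxQ⟩ : Q) ∈ Z2 := by
        refine Subgroup.mem_upperCentralSeries_succ_iff.mpr fun y => ?_
        rw [Subgroup.upperCentralSeries_one]
        haveI := hcyc
        let _ : CommGroup Q := IsCyclic.commGroup
        rw [commutatorElement_eq_one_iff_mul_comm.mpr (mul_comm (⟨x, hxQ⟩ : Q) y)]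
        exact Subgroup.one_mem _
      exact ⟨⟨x, hxQ⟩, (hmem _).mpr ⟨hx', Subtype.ext (by simpa using hxp)⟩, rfl⟩
    obtain ⟨A, hAn, ⟨hAc, hAp⟩, hA2⟩ := PGroup.exists_normal_elementary_sq hp2 hQp hcyc
    haveI := hAn
    have hAC : A.map Q.subtype ≤ C := by
      rintro _ ⟨a, ha, rfl⟩
      exact ⟨a, (hmem a).mpr ⟨le_upperCentralSeries_two hQp A hA2 ha, hAp a ha⟩, rfl⟩
    by_contra hxC'
    set A' := A.map Q.subtype with hA'
    set X := Subgroup.closure ((A' : Set G) ∪ {x}) with hX
    have hcomm : ∀ a ∈ ((A' : Set G) ∪ {x}), ∀ b ∈ ((A' : Set G) ∪ {x}), a * b = b * a := by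
      rintro a (ha | rfl) b (hb | rfl)
      · obtain ⟨a', ha', rfl⟩ := ha
        obtain ⟨b', hb', rfl⟩ := hb
        exact congrArg (fun z : A => ((z : Q) : G)) (hAc.is_comm.comm ⟨a', ha'⟩ ⟨b', hb'⟩)
      · exact Subgroup.mem_centralizer_iff.mp hxC a (hAC ha)
      · exact (Subgroup.mem_centralizer_iff.mp hxC b (hAC hb)).symm
      · rfl
    have hXc : IsMulCommutative X := Subgroup.isMulCommutative_closure hcomm
    have hXp : ∀ a ∈ X, a ^ p = 1 := by
      intro a ha
      induction ha using Subgroup.closure_induction with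
      | mem a ha =>
        rcases ha with ha | rfl
        · exact hexp a (hAC ha)
        · exact hxp
      | one => exact one_pow p
      | mul a b ha hb iha ihb =>
        rw [(show Commute a b from congrArg Subtype.val
          (hXc.is_comm.comm (⟨a, ha⟩ : X) ⟨b, hb⟩)).mul_pow, iha, ihb, one_mul]
      | inv a _ iha => rw [inv_pow, iha, inv_one]
    have hle : A' ≤ X := fun a ha => Subgroup.subset_closure (Or.inl ha)
    have hcard : Nat.card A' = p ^ 2 := by
      rw [hA', Subgroup.card_map_of_injective Q.subtype_injective, hA2]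
    have heq := Subgroup.eq_of_le_of_card_ge hle (hcard ▸ hr X hXc hXp)
    exact hxC' (hAC (heq ▸ Subgroup.subset_closure (Or.inr rfl)))
  -- the order of `C`
  have hrC : PRankLE p 2 C := subgroupRank hr C
  have hexpC : ∀ x : C, x ^ p = 1 := fun x => Subtype.ext (by simpa using hexp x x.2)
  have hCp : IsPGroup p C := fun x => ⟨1, by simpa using hexpC x⟩
  obtain ⟨n, hn⟩ := IsPGroup.iff_card.mp hCp
  have hn3 : n ≤ 3 := (Nat.pow_le_pow_iff_right hp.out.one_lt).mp
    (hn ▸ Cfsg.Agent.S3771.result hCp hrC hexpC)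
  have hclC : ∀ a b : C, ⁅a, b⁆ ∈ Subgroup.center C := by
    intro a b
    obtain ⟨a', ha', hae⟩ := a.2
    obtain ⟨b', hb', hbe⟩ := b.2
    rw [Subgroup.mem_center_iff]
    intro c
    obtain ⟨c', hc', hce⟩ := c.2
    apply Subtype.ext
    have h1 := Subgroup.mem_center_iff.mp (hcl a' ((hmem a').mp ha').1 b') c'
    have h2 := congrArg Subtype.val h1
    simp only [Subgroup.coe_subtype] at hae hbe hce
    simp only [commutatorElement_def, Subgroup.coe_mul, Subgroup.coe_inv, ← hae, ← hbe, ← hce] at h2 ⊢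
    exact h2
  have hidx := OddLocal.frattini_index_le_of_rank_two hclC hexpC hrC
  obtain ⟨r, -, hrr⟩ := (Nat.dvd_prime_pow hp.out).mp (hn ▸ Subgroup.index_dvd_card (frattini C))
  have hr2 : r ≤ 2 := (Nat.pow_le_pow_iff_right hp.out.one_lt).mp (hrr ▸ hidx)
  -- the chain
  set CE : Subgroup G := C ⊓ E with hCE
  haveI : CE.Normal := Subgroup.normal_inf_normal _ _
  have hCEle : Nat.card CE ≤ p ^ 2 := by
    refine hr _ (IsMulCommutative.of_comm ?_) (fun a ha => hexp a ha.1)
    rintro ⟨a, ha⟩ ⟨b, hb⟩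
    exact Subtype.ext (Subgroup.mem_centralizer_iff.mp hb.2.2 a ha.1)
  have hEsmall : Small p E := by
    refine small_of_central_omega hp2 _ G E rfl inferInstance (hQp.to_le inf_le_left) ?_ ?_
    · intro x hx hxp y hy
      exact Subgroup.mem_centralizer_iff.mp hy.2 x (hkey x hx hxp)
    · refine le_trans (Set.ncard_le_ncard (t := (CE : Set G)) ?_) ?_
      · exact fun x hx => ⟨hkey x hx.1 hx.2, hx.1⟩
      · rw [← Nat.card_coe_set_eq]; exact hCEle
  obtain ⟨i, -, hi⟩ := (Nat.dvd_prime_pow hp.out).mp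
    (hn ▸ Subgroup.relIndex_dvd_card E C : E.relIndex C ∣ p ^ n)
  obtain ⟨j, hj⟩ := (hQp.index (E.subgroupOf Q))
  have hjaut : p ^ j ∣ Nat.card (MulAut C) := hj ▸ relIndex_inf_centralizer_dvd
  obtain ⟨hj3, hj1⟩ := pow_dvd_card_aut hn hrr hr2 hn3 hjaut
  have hi2 : i ≤ 2 := by
    by_contra hi3
    have h1 : E.relIndex C * Nat.card CE = p ^ n := by
      rw [← hn, hCE, inf_comm, ← Subgroup.inf_relIndex_right]
      have h2 := Subgroup.card_mul_index ((E ⊓ C).subgroupOf C)
      rw [Nat.card_congr (Subgroup.subgroupOfEquivOfLe (inf_le_right : E ⊓ C ≤ C)).toEquiv] at h2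
      rw [mul_comm]
      exact h2
    have hne : CE ≠ ⊥ := by
      haveI : Nontrivial C := by
        rw [← Finite.one_lt_card_iff_nontrivial, hn]
        refine Nat.one_lt_pow ?_ hp.out.one_lt
        rintro rfl
        rw [pow_zero, hi] at h1
        have := Nat.eq_one_of_mul_eq_one_right h1
        exact absurd ((Nat.pow_eq_one).mp this) (by
          rintro (h | h)
          · exact hp.out.ne_one h
          · omega)
      haveI := hCp.center_nontrivial
      obtain ⟨z, hz⟩ := exists_ne (1 : Subgroup.center C)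
      intro hb
      apply hz
      have hzCE : ((z : C) : G) ∈ CE := ⟨(z : C).2, hCQ (z : C).2,
        Subgroup.mem_centralizer_iff.mpr fun c hc =>
          congrArg Subtype.val (Subgroup.mem_center_iff.mp z.2 ⟨c, hc⟩)⟩
      rw [hb, Subgroup.mem_bot] at hzCE
      exact Subtype.ext (Subtype.ext hzCE)
    obtain ⟨c, -, hc⟩ := (Nat.dvd_prime_pow hp.out).mp (Dvd.intro_left _ h1 : Nat.card CE ∣ p ^ n)
    have hc0 : c ≠ 0 := by
      rintro rfl
      exact hne (Subgroup.card_eq_one.mp (by rw [hc, pow_zero]))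
    rw [hi, hc, ← pow_add] at h1
    have := Nat.pow_right_injective hp.out.two_le h1
    omega
  have hsup : (E ⊔ C).Normal := inferInstance
  have hEC : E.relIndex (E ⊔ C) = p ^ i := by rw [sup_comm, Subgroup.relIndex_sup_right, hi]
  have hECsmall : Small p (E ⊔ C) :=
    hEsmall.step inferInstance hsup le_sup_left (hEC ▸ not_pow_three_dvd_of_pow hp.out hi2)
  refine hECsmall.step hsup inferInstance (sup_le inf_le_left hCQ) ?_
  have h2 := Subgroup.relIndex_mul_relIndex E (E ⊔ C) Q le_sup_left (sup_le inf_le_left hCQ)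
  have h3 : E.relIndex Q = p ^ j := hj
  rw [hEC, h3] at h2
  obtain ⟨l, -, hl⟩ := (Nat.dvd_prime_pow hp.out).mp (Dvd.intro_left _ h2)
  rw [hl]
  rw [hl, ← pow_add] at h2
  have hij := Nat.pow_right_injective hp.out.two_le h2
  refine not_pow_three_dvd_of_pow hp.out ?_
  rcases Nat.eq_zero_or_pos i with hi0 | hi0
  · -- then `C ≤ E` is abelian
    have hCle : C ≤ E := Subgroup.relIndex_eq_one.mp (by rw [hi, hi0, pow_zero])
    have : n ≤ 2 := (Nat.pow_le_pow_iff_right hp.out.one_lt).mp (by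
      rw [← hn]
      exact (Nat.le_of_eq (by rw [hCE, inf_eq_left.mpr hCle])).trans hCEle)
    have := hj1 this
    omega
  · omega

/-- The index of the `p`-core, when it contains its centralizer. -/
theorem not_pow_three_dvd_index_pCore [Finite G] {p : ℕ} [hp : Fact p.Prime] (hp2 : p ≠ 2)
    (hr : PRankLE p 2 G) (hc : Subgroup.centralizer (pCore p G : Set G) ≤ pCore p G) :
    ¬ p ^ 3 ∣ (pCore p G).index := by
  classical
  set Q := pCore p G with hQ
  haveI : Q.Normal := inferInstance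
  have hQp : IsPGroup p Q := Constrained.isPGroup_pCore
  obtain ⟨W, _, _, φ, hWc, hWp, hW2, hker⟩ := OddLocal.exists_small_action (A := (⊤ : Subgroup G))
    hp2 hQp (subgroupRank hr Q) (by simp [Subgroup.normalizer_eq_top])
  let ψ : G →* MulAut W := φ.comp Subgroup.topEquiv.symm.toMonoidHom
  have hD : ψ.ker ≤ Q := by
    refine Constrained.le_pCore inferInstance fun x => ?_
    obtain ⟨k, hk⟩ := OddLocal.orderOf_coprime_of_pow (p := p) ((x : G))
    refine ⟨k, ?_⟩
    apply Subtype.ext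
    show (x : G) ^ p ^ k = 1
    have h1 : (x : G) ^ p ^ k ∈ ψ.ker := ψ.ker.pow_mem x.2 _
    have h2 := hker (⟨(x : G) ^ p ^ k, Subgroup.mem_top _⟩ : (⊤ : Subgroup G))
      (by rw [Subgroup.orderOf_mk]; exact hk) h1
    obtain ⟨m, hm⟩ := hQp ⟨_, hc h2⟩
    have h4 : orderOf ((x : G) ^ p ^ k) ∣ p ^ m :=
      orderOf_dvd_of_pow_eq_one (by simpa using congrArg Subtype.val hm)
    exact orderOf_eq_one_iff.mp (Nat.eq_one_of_dvd_coprimes (hk.pow_right m) dvd_rfl h4)
  intro hdvd
  have h1 : p ^ 3 ∣ Nat.card (MulAut W) :=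
    (hdvd.trans (Subgroup.index_dvd_of_le hD)).trans (by
      rw [Subgroup.index_ker]; exact Subgroup.card_subgroup_dvd_card _)
  have hWP : IsPGroup p W := fun x => ⟨1, by simpa using hWp x⟩
  obtain ⟨n, hn⟩ := IsPGroup.iff_card.mp hWP
  have hn2 : n ≤ 2 := (Nat.pow_le_pow_iff_right hp.out.one_lt).mp (hn ▸ hW2)
  obtain ⟨r, hrn, hr'⟩ := (Nat.dvd_prime_pow hp.out).mp (hn ▸ Subgroup.index_dvd_card (frattini W))
  have := (pow_dvd_card_aut (k := 3) hn hr' (by omega) (by omega) h1).2 hn2
  omega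

/-- `p`-solvable groups of odd `p`-rank at most two are small. -/
theorem small_top [Finite G] {p : ℕ} [hp : Fact p.Prime] (hp2 : p ≠ 2) (hG : IsPSolvable p G)
    (hr : PRankLE p 2 G) : Small p (⊤ : Subgroup G) := by
  set N := pPrimeCore p G with hN
  have hNcop : (Nat.card N).Coprime p := Constrained.pPrimeCore_coprime
  have hNsmall : Small p N := Small.bot.step inferInstance inferInstance bot_le (by
    rw [Subgroup.relIndex_bot_left]
    intro h
    exact hp.out.coprime_iff_not_dvd.mp hNcop.symm ((dvd_pow_self p (by norm_num)).trans h))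
  let π := QuotientGroup.mk' N
  have hQO : pPrimeCore p (G ⧸ N) = ⊥ := Constrained.pPrimeCore_quotient_pPrimeCore
  have hr' : PRankLE p 2 (G ⧸ N) := OddLocal.prankLE_quotient hNcop hr
  have hsol : IsPSolvable p (G ⧸ N) := Constrained.IsPSolvable.quotient hG N
  have hc := Constrained.centralizer_pCore_le_of hQO (Constrained.IsPSolvable.subgroup hsol _)
  have hidx := not_pow_three_dvd_index_pCore hp2 hr' hc
  have htop : Small p (⊤ : Subgroup (G ⧸ N)) :=
    (small_pCore hp2 hr').step inferInstance inferInstance le_top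
      (by rwa [Subgroup.relIndex_top_right])
  have h := Small.comap π (QuotientGroup.mk'_surjective N)
    (by rw [QuotientGroup.ker_mk']; exact hNsmall) htop
  rwa [Subgroup.comap_top] at h

end CfsgLib.RankTwoChief
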