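import Cfsg.Agent.Coprime.FixOrderP
import Cfsg.Agent.PGroup.Frattini

/-!
For an odd prime `p` and a finite `p`-group in which the elements of order `p` are central,
`x ^ p = y ^ p` forces `(x⁻¹ * y) ^ p = 1`.
-/

set_option autoImplicit false

namespace CfsgLib.RankTwoChief

theorem inv_mul_pow_eq_one_of_pow_eq {P : Type*} [Group P] [Finite P] {p : ℕ} [hp : Fact p.Prime]
    (hp2 : p ≠ 2) (hP : IsPGroup p P) (hcen : ∀ x : P, x ^ p = 1 → x ∈ Subgroup.center P)
    {x y : P} (hxy : x ^ p = y ^ p) : (x⁻¹ * y) ^ p = 1 := by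
  suffices main : ∀ (n : ℕ) (X : Subgroup P), Nat.card X = n → ∀ x ∈ X, ∀ y ∈ X,
      x ^ p = y ^ p → (x⁻¹ * y) ^ p = 1 from
    main _ ⊤ rfl x trivial y trivial hxy
  intro n
  induction n using Nat.strong_induction_on with
  | _ n ih =>
  intro X hn x hx y hy hpow
  subst hn
  have hconjpow : x ^ p = (y * x * y⁻¹) ^ p := by
    rw [conj_pow, hpow, ← pow_succ' y p, pow_succ, mul_inv_cancel_right]
  set M := Subgroup.closure ({x, y * x * y⁻¹} : Set P) with hM
  have hMX : M ≤ X := (Subgroup.closure_le _).mpr (by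
    rintro a (rfl | rfl)
    · exact hx
    · exact X.mul_mem (X.mul_mem hy hx) (X.inv_mem hy))
  have key : (x⁻¹ * (y * x * y⁻¹)) ^ p = 1 := by
    rcases hMX.lt_or_eq with hlt | heq
    · exact ih _ (Nat.lt_of_le_of_ne (Subgroup.card_le_of_le hMX)
        fun he => hlt.ne (Subgroup.eq_of_le_of_card_ge hMX he.ge)) M rfl x
        (Subgroup.subset_closure (Or.inl rfl)) _ (Subgroup.subset_closure (Or.inr rfl)) hconjpow
    · -- then `X` is cyclic
      have hXp : IsPGroup p X := hP.to_subgroup X
      set x' : X := ⟨x, hx⟩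
      set y' : X := ⟨y, hy⟩
      have htop : Subgroup.closure ({x'} : Set X) = ⊤ := by
        rw [PGroup.closure_eq_top_iff, eq_top_iff]
        intro q _
        obtain ⟨a, rfl⟩ := QuotientGroup.mk'_surjective (frattini X) q
        have hle : M ≤ (((Subgroup.closure (QuotientGroup.mk' (frattini X) '' {x'})).comap
            (QuotientGroup.mk' (frattini X))).map X.subtype) := by
          rw [hM, Subgroup.closure_le]
          rintro b (rfl | rfl)
          · exact ⟨x', Subgroup.subset_closure ⟨x', rfl, rfl⟩, rfl⟩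
          · refine ⟨y' * x' * y'⁻¹, ?_, rfl⟩
            change QuotientGroup.mk' (frattini X) (y' * x' * y'⁻¹) ∈ Subgroup.closure (QuotientGroup.mk' (frattini X) '' ({x'} : Set X))
            have hc := PGroup.commutatorElement_mem_frattini hXp y' x'
            have h1 : QuotientGroup.mk' (frattini X) (y' * x' * y'⁻¹) =
                QuotientGroup.mk' (frattini X) x' := by
              rw [QuotientGroup.mk'_apply, QuotientGroup.mk'_apply, eq_comm, QuotientGroup.eq]
              have h2 := (inferInstance : (frattini X).Normal).conj_mem _ hc x'⁻¹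
              rw [commutatorElement_def] at h2
              convert h2 using 1
              group
            rw [h1]
            exact Subgroup.subset_closure ⟨x', rfl, rfl⟩
        obtain ⟨a', ha', he⟩ := hle (heq ▸ a.2 : (a : P) ∈ M)
        rw [← Subtype.ext (a1 := a') (a2 := a) he]
        exact ha'
      obtain ⟨k, hk⟩ := Subgroup.mem_closure_singleton.mp (htop ▸ Subgroup.mem_top y')
      have hkP : x ^ k = y := congrArg Subtype.val hk
      have : y * x * y⁻¹ = x := by
        rw [← hkP, ← zpow_add_one, ← zpow_neg, ← zpow_add, add_assoc,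
          add_comm (1 : ℤ) (-k), ← add_assoc, add_neg_cancel, zero_add, zpow_one]
      rw [this, inv_mul_cancel, one_pow]
  set c := x⁻¹ * (y * x * y⁻¹) with hc
  have hcc := Subgroup.mem_center_iff.mp (hcen c key)
  obtain ⟨-, h2⟩ := Coprime.mul_pow_of_central_commutator (x := x⁻¹) (y := y) (z := c)
    (by rw [hc]; group) ((hcc x⁻¹).symm) ((hcc y).symm)
  have h3 := h2 p
  have hodd := hp.out.odd_of_ne_two hp2
  obtain ⟨m, hm⟩ : p ∣ p.choose 2 :=
    hp.out.dvd_choose_self two_ne_zero (lt_of_le_of_ne hp.out.two_le (Ne.symm hp2))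
  rw [hm, pow_mul, key, one_pow, one_mul, inv_pow, hpow, mul_inv_cancel] at h3
  calc (x⁻¹ * y) ^ p = (x⁻¹ * (y * x⁻¹) * x⁻¹⁻¹) ^ p := by congr 1; group
    _ = 1 := by rw [conj_pow, h3, mul_one, mul_inv_cancel]

end CfsgLib.RankTwoChief
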